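import Cfsg.Agent.Lib.MinNormalNonabelian
import Cfsg.Agent.Solvable.FpfCyclic
import Cfsg.Agent.S0033

/-!
# S2539, layer (2): the pure group theory of a minimal counterexample without root subgroups

`Core A`: `A` is a non-cyclic self-centralising abelian subgroup of the finite group `G` such that
every proper overgroup of `A` normalises `A`, `A` is weakly TI in the sense that a conjugate of
`1 ≠ t ∈ A` lying in `A` is obtained only by elements of `N(A)`, and `N(A)` contains no
non-trivial normal subgroup of `G`.  Then `G = A L` with `L` simple non-abelian normal,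
`C(L) = 1` and `A ∩ L ≠ 1` (`Core.main`).
-/

set_option autoImplicit false

namespace Cfsg.Agent.H298.OT

open Subgroup Cfsg.Agent.Lib.MinNormal Cfsg.Agent.Lib.MinNormalNonabelian
open scoped commutatorElement

/-! ## General lemmas -/

/-- A finite simple non-abelian group is not nilpotent. -/
theorem not_isNilpotent_of_simple {S : Type*} [Group S] [Finite S] [IsSimpleGroup S]
    (hna : ¬ ∀ x y : S, x * y = y * x) : ¬ Group.IsNilpotent S := by
  intro h
  apply hna
  have : Group.IsSolvable S := inferInstance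
  exact IsSimpleGroup.comm_iff_isSolvable.mpr this

/-- An element of prime order acting without fixed points on a subgroup: Thompson. -/
theorem isNilpotent_of_fpf {G : Type*} [Group G] [Finite G] (L : Subgroup G) {a : G}
    (ha : a ∈ normalizer (L : Set G)) {p : ℕ} (hp : p.Prime) (hap : a ^ p = 1)
    (hfpf : ∀ x ∈ L, a * x * a⁻¹ = x → x = 1) : Group.IsNilpotent L := by
  let φ : MulAut L := normalizerMonoidHom L ⟨a, ha⟩
  have hφ : ∀ x : L, ((φ x : L) : G) = a * x * a⁻¹ := fun x => rfl
  have hφp : φ ^ p = 1 := by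
    have : (⟨a, ha⟩ : normalizer (L : Set G)) ^ p = 1 := Subtype.ext hap
    change (normalizerMonoidHom L ⟨a, ha⟩) ^ p = 1
    rw [← map_pow, this, map_one]
  by_cases h1 : φ = 1
  · have : ∀ x : L, x = 1 := by
      intro x
      apply Subtype.ext
      apply hfpf x x.2
      rw [← hφ, h1]
      rfl
    have : Subsingleton L := ⟨fun x y => (this x).trans (this y).symm⟩
    infer_instance
  · have : Fact p.Prime := ⟨hp⟩
    refine Cfsg.Agent.S0033.result φ ?_ p hp (orderOf_eq_prime hφp h1)
    intro x hx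
    apply Subtype.ext
    apply hfpf x x.2
    rw [← hφ]
    exact congrArg Subtype.val hx

/-- A finite simple non-abelian group has, for every commuting family `Φ` of automorphisms,
a `Φ`-invariant proper subgroup with an element `x` such that `x ^ 2 ≠ 1`. -/
theorem not_exp_two {S : Type*} [Group S] [Finite S] [IsSimpleGroup S]
    (hna : ¬ ∀ x y : S, x * y = y * x) (Φ : Subgroup (MulAut S))
    (hcomm : ∀ φ ∈ Φ, ∀ ψ ∈ Φ, φ * ψ = ψ * φ)
    (h2 : ∀ R : Subgroup S, (∀ φ ∈ Φ, ∀ x ∈ R, φ x ∈ R) → R ≠ ⊤ → ∀ x ∈ R, x * x = 1) :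
    False := by
  classical
  have hnil := not_isNilpotent_of_simple hna
  -- a non-trivial invariant proper subgroup
  obtain ⟨R, hRinv, hRtop, hRbot⟩ : ∃ R : Subgroup S, (∀ φ ∈ Φ, ∀ x ∈ R, φ x ∈ R) ∧ R ≠ ⊤ ∧
      R ≠ ⊥ := by
    by_cases hΦ : Φ = ⊥
    · obtain ⟨x, hx⟩ := exists_ne (1 : S)
      refine ⟨zpowers x, ?_, ?_, ?_⟩
      · intro φ hφ y hy
        rw [hΦ, mem_bot] at hφ
        rw [hφ]
        exact hy
      · intro h
        apply hna
        intro y z
        have hy : y ∈ zpowers x := by rw [h]; exact mem_top y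
        have hz : z ∈ zpowers x := by rw [h]; exact mem_top z
        obtain ⟨i, rfl⟩ := mem_zpowers_iff.mp hy
        obtain ⟨j, rfl⟩ := mem_zpowers_iff.mp hz
        exact ((Commute.refl x).zpow_zpow i j).eq
      · intro h
        exact hx (zpowers_eq_bot.mp h)
    · have hcard : Nat.card Φ ≠ 1 := by
        intro h
        exact hΦ (Subgroup.card_eq_one.mp h)
      obtain ⟨p, hp, hpd⟩ := Nat.exists_prime_and_dvd hcard
      have : Fact p.Prime := ⟨hp⟩
      obtain ⟨φ, hφ⟩ := exists_prime_orderOf_dvd_card' p hpd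
      have hφo : orderOf (φ : MulAut S) = p := by rw [orderOf_coe, hφ]
      have hφ1 : (φ : MulAut S) ≠ 1 := by
        intro h
        rw [h, orderOf_one] at hφo
        exact hp.one_lt.ne hφo
      let R : Subgroup S :=
        { carrier := {x | (φ : MulAut S) x = x}
          one_mem' := map_one _
          mul_mem' := fun {x y} hx hy => by
            change (φ : MulAut S) (x * y) = x * y
            rw [map_mul, show (φ : MulAut S) x = x from hx, show (φ : MulAut S) y = y from hy]
          inv_mem' := fun {x} hx => by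
            change (φ : MulAut S) x⁻¹ = x⁻¹
            rw [map_inv, show (φ : MulAut S) x = x from hx] }
      refine ⟨R, ?_, ?_, ?_⟩
      · intro ψ hψ x hx
        change (φ : MulAut S) (ψ x) = ψ x
        have h1 : ((φ : MulAut S) * ψ) x = (ψ * (φ : MulAut S)) x := by
          rw [hcomm φ φ.2 ψ hψ]
        rw [MulAut.mul_apply, MulAut.mul_apply, show (φ : MulAut S) x = x from hx] at h1
        exact h1
      · intro h
        apply hφ1
        ext x
        have : x ∈ R := by rw [h]; exact mem_top x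
        exact this
      · intro h
        apply hnil
        refine Cfsg.Agent.S0033.result (φ : MulAut S) ?_ p hp hφo
        intro x hx
        have : x ∈ R := hx
        rw [h, mem_bot] at this
        exact this
  -- a maximal invariant `2`-subgroup
  have hfin : {D : Subgroup S | (∀ φ ∈ Φ, ∀ x ∈ D, φ x ∈ D) ∧ IsPGroup 2 D ∧ R ≤ D}.Finite :=
    Set.toFinite _
  have hsq : ∀ D : Subgroup S, (∀ x ∈ D, x * x = 1) → IsPGroup 2 D := by
    intro D hD x
    refine ⟨1, Subtype.ext ?_⟩
    rw [pow_one, pow_two]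
    exact hD x x.2
  obtain ⟨D, ⟨hDinv, hD2, hRD⟩, hDmax⟩ := hfin.exists_maximal
    ⟨R, hRinv, hsq R (h2 R hRinv hRtop), le_rfl⟩
  have hDtop : D ≠ ⊤ := by
    intro h
    apply hnil
    rw [h] at hD2
    have : Fact (Nat.Prime 2) := ⟨Nat.prime_two⟩
    have h3 : IsPGroup 2 S := hD2.of_equiv topEquiv
    exact h3.isNilpotent
  have hDbot : D ≠ ⊥ := by
    intro h
    apply hRbot
    rw [h] at hRD
    exact le_bot_iff.mp hRD
  have hinvset : ∀ φ ∈ Φ, ∀ x, φ x ∈ D ↔ x ∈ D := by
    intro φ hφ x
    constructor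
    · intro h
      have := hDinv φ⁻¹ (Φ.inv_mem hφ) _ h
      rwa [MulAut.inv_apply_self] at this
    · exact hDinv φ hφ x
  have hN : ∀ φ ∈ Φ, ∀ x ∈ normalizer (D : Set S), φ x ∈ normalizer (D : Set S) := by
    intro φ hφ x hx
    rw [mem_normalizer_iff]
    intro y
    obtain ⟨z, rfl⟩ := φ.surjective y
    have h3 : φ x * φ z * (φ x)⁻¹ = φ (x * z * x⁻¹) := by
      rw [map_mul, map_mul, map_inv]
    rw [h3]
    change φ z ∈ D ↔ φ (x * z * x⁻¹) ∈ D
    rw [hinvset φ hφ, hinvset φ hφ]
    exact mem_normalizer_iff.mp hx z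
  have hNtop : normalizer (D : Set S) ≠ ⊤ := by
    intro h
    have hDn : D.Normal := normalizer_eq_top_iff.mp h
    rcases hDn.eq_bot_or_eq_top with h | h
    · exact hDbot h
    · exact hDtop h
  have hNsq := h2 _ hN hNtop
  have hND : normalizer (D : Set S) = D := by
    apply le_antisymm ?_ D.le_normalizer
    exact hDmax ⟨hN, hsq _ hNsq, hRD.trans D.le_normalizer⟩ D.le_normalizer
  have hDcomm : ∀ x ∈ D, ∀ y ∈ D, x * y = y * x := by
    intro x hx y hy
    have h3 := h2 D hDinv hDtop
    have hx2 := h3 x hx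
    have hy2 := h3 y hy
    have hxy := h3 (x * y) (D.mul_mem hx hy)
    have h4 : x⁻¹ = x := inv_eq_of_mul_eq_one_left hx2
    have h5 : y⁻¹ = y := inv_eq_of_mul_eq_one_left hy2
    have h6 : (x * y)⁻¹ = x * y := inv_eq_of_mul_eq_one_left hxy
    rw [mul_inv_rev, h4, h5] at h6
    exact h6.symm
  -- `D` is a Sylow 2-subgroup
  have : Fact (Nat.Prime 2) := ⟨Nat.prime_two⟩
  obtain ⟨P, hDP⟩ := hD2.exists_le_sylow
  have hPD : (P : Subgroup S) = D := by
    by_contra hne
    have hlt : D.subgroupOf (P : Subgroup S) < ⊤ := by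
      rw [lt_top_iff_ne_top]
      intro h
      apply hne
      rw [subgroupOf_eq_top] at h
      exact le_antisymm h hDP
    have hPn : Group.IsNilpotent (P : Subgroup S) := P.isPGroup'.isNilpotent
    have h3 := Group.normalizerCondition_of_isNilpotent (D.subgroupOf (P : Subgroup S)) hlt
    obtain ⟨x, hx, hxD⟩ := SetLike.exists_of_lt h3
    apply hxD
    rw [mem_subgroupOf]
    rw [← hND, mem_normalizer_iff]
    intro y
    rw [mem_normalizer_iff] at hx
    constructor
    · intro hy
      exact (hx ⟨y, hDP hy⟩).mp hy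
    · intro hy
      have h4 : (⟨(x : S) * y * (x : S)⁻¹, hDP hy⟩ : (P : Subgroup S)) =
          x * ⟨y, by
            have := (P : Subgroup S).mul_mem ((P : Subgroup S).mul_mem
              ((P : Subgroup S).inv_mem x.2) (hDP hy)) x.2
            simpa [mul_assoc] using this⟩ * x⁻¹ := Subtype.ext rfl
      have h5 : (⟨(x : S) * y * (x : S)⁻¹, hDP hy⟩ : (P : Subgroup S)) ∈
          D.subgroupOf (P : Subgroup S) := hy
      rw [h4] at h5
      exact (hx _).mpr h5
  -- Burnside
  have hPc : normalizer ((P : Subgroup S) : Set S) ≤ centralizer ((P : Subgroup S) : Set S) := by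
    rw [hPD, hND]
    intro x hx
    rw [mem_centralizer_iff]
    intro y hy
    exact hDcomm y hy x hx
  have hcompl := MonoidHom.ker_transferSylow_isComplement' P hPc
  have hker : (MonoidHom.transferSylow P hPc).ker = ⊥ ∨
      (MonoidHom.transferSylow P hPc).ker = ⊤ :=
    (inferInstance : (MonoidHom.transferSylow P hPc).ker.Normal).eq_bot_or_eq_top
  rcases hker with h | h
  · rw [h] at hcompl
    have h3 : (P : Subgroup S) = ⊤ := by
      have := hcompl.sup_eq_top
      rwa [bot_sup_eq] at this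
    exact hDtop (hPD ▸ h3)
  · rw [h] at hcompl
    have h3 : (P : Subgroup S) = ⊥ := by
      have := hcompl.disjoint
      rw [top_disjoint] at this
      exact this
    exact hDbot (hPD ▸ h3)

/-! ## The centreless situation -/

/-- The situation modulo the centre. -/
structure Core {G : Type*} [Group G] (A : Subgroup G) : Prop where
  comm : ∀ x ∈ A, ∀ y ∈ A, x * y = y * x
  cent : centralizer (A : Set G) ≤ A
  ne : normalizer (A : Set G) ≠ ⊤
  uniq : ∀ H : Subgroup G, A ≤ H → H ≠ ⊤ → H ≤ normalizer (A : Set G)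
  ti : ∀ t ∈ A, t ≠ 1 → ∀ g : G, g * t * g⁻¹ ∈ A → g ∈ normalizer (A : Set G)
  norm : ∀ X : Subgroup G, X.Normal → X ≤ normalizer (A : Set G) → X = ⊥
  noncyc : ¬ IsCyclic A

namespace Core

variable {G : Type*} [Group G] [Finite G] {A : Subgroup G}

omit [Finite G] in
theorem cent_le (h : Core A) {t : G} (ht : t ∈ A) (ht1 : t ≠ 1) {x : G} (hx : x * t = t * x) :
    x ∈ normalizer (A : Set G) := by
  apply h.ti t ht ht1
  rw [hx, mul_inv_cancel_right]
  exact ht

omit [Finite G] in
theorem centralizer_le (h : Core A) {t : G} (ht : t ∈ A) (ht1 : t ≠ 1) :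
    centralizer ({t} : Set G) ≤ normalizer (A : Set G) := fun _ hx =>
  h.cent_le ht ht1 (mem_centralizer_singleton_iff.mp hx)

omit [Finite G] in
/-- `A ∩ A ^ g = 1` for `g ∉ N(A)`. -/
theorem inf_map_conj (h : Core A) {g : G} (hg : g ∉ normalizer (A : Set G)) :
    A ⊓ A.map (MulAut.conj g).toMonoidHom = ⊥ := by
  rw [eq_bot_iff]
  rintro _ ⟨hx, ⟨t, ht, rfl⟩⟩
  rw [mem_bot]
  by_contra hne
  apply hg
  refine h.ti t ht ?_ g hx
  rintro rfl
  exact hne (map_one _)

omit [Finite G] in
theorem sup_eq_top (h : Core A) {X : Subgroup G} (hX : X.Normal) (hX0 : X ≠ ⊥) : A ⊔ X = ⊤ := by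
  by_contra hne
  exact hX0 (h.norm X hX (le_sup_right.trans (h.uniq _ le_sup_left hne)))

omit [Finite G] in
/-- A subgroup normalised by `A` and by a normal subgroup `X ≠ 1` is normal. -/
theorem normal_of_le (h : Core A) {X Y : Subgroup G} (hX : X.Normal) (hX0 : X ≠ ⊥)
    (h1 : A ≤ normalizer (Y : Set G)) (h2 : X ≤ normalizer (Y : Set G)) : Y.Normal := by
  rw [← normalizer_eq_top_iff, eq_top_iff, ← h.sup_eq_top hX hX0]
  exact sup_le h1 h2

/-- No abelian minimal normal subgroup: an abelian normal subgroup is trivial. -/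
theorem not_abelian (h : Core A) {X : Subgroup G} (hX : X.Normal)
    (hab : ∀ x ∈ X, ∀ y ∈ X, x * y = y * x) : X = ⊥ := by
  by_contra hX0
  -- `X ⊓ N(A)` is normal
  have hY : (X ⊓ normalizer (A : Set G)).Normal := by
    apply h.normal_of_le hX hX0
    · apply le_normalizer_inf
      · rw [normalizer_eq_top_iff.mpr hX]
        exact le_top
      · exact A.le_normalizer.trans (normalizer (A : Set G)).le_normalizer
    · intro x hx
      rw [mem_normalizer_iff]
      intro y
      constructor
      · intro hy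
        have : x * y * x⁻¹ = y := by rw [hab x hx y hy.1, mul_inv_cancel_right]
        rw [this]
        exact hy
      · intro hy
        have hyX : y ∈ X := by
          have := hX.conj_mem _ hy.1 x⁻¹
          simpa [mul_assoc] using this
        have : x * y * x⁻¹ = y := by rw [hab x hx y hyX, mul_inv_cancel_right]
        rw [this] at hy
        exact hy
  have hY0 := h.norm _ hY inf_le_right
  -- so `A` acts without fixed points
  have hfix : ∀ a ∈ A, a ≠ 1 → ∀ x ∈ X, a * x * a⁻¹ = x → x = 1 := by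
    intro a ha ha1 x hx hax
    have h1 : x ∈ X ⊓ normalizer (A : Set G) := by
      refine ⟨hx, h.cent_le ha ha1 ?_⟩
      rw [mul_inv_eq_iff_eq_mul] at hax
      exact hax.symm
    rwa [hY0, mem_bot] at h1
  apply h.noncyc
  let _ : CommGroup X := { (inferInstance : Group X) with
    mul_comm := fun x y => Subtype.ext (hab x x.2 y y.2) }
  have : Nontrivial X := (Subgroup.nontrivial_iff_ne_bot X).mpr hX0
  refine Cfsg.Agent.Solvable.FpfCyclic.isCyclic_of_fpf_nilpotent (W := X)
    (fun a b => Subtype.ext (h.comm a a.2 b b.2))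
    ((MulAut.conjNormal (H := X)).comp A.subtype) ?_
  intro a ha x hx
  apply Subtype.ext
  apply hfix a a.2 (fun h => ha (Subtype.ext h)) x x.2
  have := congrArg Subtype.val hx
  simpa using this

/-- There is a minimal normal subgroup. -/
theorem exists_min (h : Core A) : ∃ X : Subgroup G, X.Normal ∧ X ≠ ⊥ ∧
    ∀ M : Subgroup G, M.Normal → M ≤ X → M = ⊥ ∨ M = X := by
  have htop : (⊤ : Subgroup G) ≠ ⊥ := by
    intro h1
    apply h.ne
    rw [h1]
    exact le_bot_iff.mp (h1 ▸ le_top)
  obtain ⟨X, -, hX0, hXn, hmin⟩ := exists_minimal_normal_le (⊤ : Subgroup G) htop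
  refine ⟨X, normalizer_eq_top_iff.mp (top_le_iff.mp hXn), hX0, fun M hM hMX => ?_⟩
  exact hmin M hMX (by rw [normalizer_eq_top_iff.mpr hM])

omit [Finite G] in
/-- (i) of the product case: let `a ∈ A` move the factor `L₁` of the minimal normal subgroup
`X`; then every proper subgroup of `L₁` invariant under `A ⊓ N(L₁)` has exponent two. -/
theorem exp_two (h : Core A) {X : Subgroup G} [hX : X.Normal]
    (hind : sSupIndep (minSet X)) (hsimple : ∀ T ∈ minSet X, IsSimpleGroup T)
    {L : Subgroup G} (hL : L ∈ minSet X) {a : G} (ha : a ∈ A)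
    (haL : a ∉ normalizer (L : Set G)) {R : Subgroup G} (hRL : R ≤ L) (hRne : R ≠ L)
    (hRB : A ⊓ normalizer (L : Set G) ≤ normalizer (R : Set G)) {y : G} (hy : y ∈ R) :
    y * y = 1 := by
  have hK : ∀ S ∈ minSet X, X ≤ normalizer (S : Set G) := fun S hS => hS.2.2.1
  have hle : ∀ S ∈ minSet X, S ≤ X := fun S hS => hS.1
  have hconj : ∀ g : G, L.map (MulAut.conj g).toMonoidHom ∈ minSet X :=
    fun g => map_conj_mem_minSet hL g
  have hcomm : ∀ {S T : Subgroup G}, S ∈ minSet X → T ∈ minSet X → S ≠ T →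
      ∀ {x y : G}, x ∈ S → y ∈ T → Commute x y := by
    intro S T hS hT hne x y hx hy
    exact commute_of_mem hind hK hle hS hT hne hx hy
  -- the product of the conjugates of `R`
  let Q : Subgroup G := ⨆ b : A, R.map (MulAut.conj (b : G)).toMonoidHom
  have hAQ : A ≤ normalizer (Q : Set G) := by
    rw [le_normalizer_iff]
    intro c hc q hq
    have h1 : Q ≤ Q.comap (MulAut.conj c).toMonoidHom := by
      refine iSup_le fun b => ?_
      rintro _ ⟨r, hr, rfl⟩
      rw [mem_comap]
      refine (le_iSup (fun b : A => R.map (MulAut.conj (b : G)).toMonoidHom) (⟨c, hc⟩ * b))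
        ⟨r, hr, ?_⟩
      change ((c * (b : G)) * r * (c * (b : G))⁻¹ : G) = c * ((b : G) * r * (b : G)⁻¹) * c⁻¹
      group
    exact h1 hq
  have hRQ : R ≤ Q := by
    have := le_iSup (fun b : A => R.map (MulAut.conj (b : G)).toMonoidHom) 1
    simp only [OneMemClass.coe_one, map_conj_one] at this
    exact this
  have hQX : Q ≤ X := by
    refine iSup_le fun b => ?_
    exact (Subgroup.map_mono (hRL.trans hL.1)).trans (le_of_eq (map_conj_normal _ X))
  have hQR : Q ≤ normalizer (R : Set G) := by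
    refine iSup_le fun b => ?_
    by_cases hb : L.map (MulAut.conj (b : G)).toMonoidHom = L
    · have hbN : (b : G) ∈ normalizer (L : Set G) := mem_normalizer_iff_map_conj_eq.mpr hb
      have := mem_normalizer_iff_map_conj_eq.mp (hRB ⟨b.2, hbN⟩)
      exact (le_of_eq this).trans R.le_normalizer
    · rintro _ ⟨r, hr, rfl⟩
      rw [mem_normalizer_iff]
      have hr' : (MulAut.conj (b : G)).toMonoidHom r ∈ L.map (MulAut.conj (b : G)).toMonoidHom :=
        ⟨r, hRL hr, rfl⟩
      generalize (MulAut.conj (b : G)).toMonoidHom r = t at hr' ⊢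
      have key : ∀ z ∈ L, Commute t z := fun z hz => hcomm (hconj b) hL hb hr' hz
      intro z
      constructor
      · intro hz
        rw [(key z (hRL hz)).eq, mul_inv_cancel_right]
        exact hz
      · intro hz
        have h1 := key _ (hRL hz)
        have h2 : z = t * z * t⁻¹ := by
          calc z = t⁻¹ * ((t * z * t⁻¹) * t) := by group
            _ = t * z * t⁻¹ := by rw [← h1.eq, inv_mul_cancel_left]
        rw [h2]
        exact hz
  by_cases htop : A ⊔ Q = ⊤
  · -- then `L` normalises `R`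
    have hLR : L ≤ normalizer (R : Set G) := by
      intro x hx
      have h1 : x ∈ ((A ⊔ Q : Subgroup G) : Set G) := by rw [htop]; exact mem_top x
      rw [coe_mul_of_left_le_normalizer_right _ _ hAQ] at h1
      obtain ⟨c, hc, q, hq, rfl⟩ := h1
      have hcX : c ∈ X := by
        have := X.mul_mem (hL.1 hx) (X.inv_mem (hQX hq))
        simpa using this
      exact mul_mem (hRB ⟨hc, hK L hL hcX⟩) (hQR hq)
    have hn : (R.subgroupOf L).Normal := by
      have := normal_subgroupOf_of_le_normalizer hLR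
      exact this
    have := hsimple L hL
    rcases hn.eq_bot_or_eq_top with h1 | h1
    · rw [subgroupOf_eq_bot] at h1
      have h2 := disjoint_iff.mp h1
      rw [inf_eq_left.mpr hRL] at h2
      rw [h2, mem_bot] at hy
      rw [hy, one_mul]
    · rw [subgroupOf_eq_top] at h1
      exact absurd (le_antisymm hRL h1) hRne
  · have hyN : y ∈ normalizer (A : Set G) :=
      h.uniq _ le_sup_left htop ((hRQ.trans le_sup_right) hy)
    have hyL := hRL hy
    -- the three factors
    have hL2 := hconj a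
    have hL3 := hconj (a * a)
    have h21 : L ≠ L.map (MulAut.conj a).toMonoidHom := fun h1 =>
      haL (mem_normalizer_iff_map_conj_eq.mpr h1.symm)
    have h32 : L.map (MulAut.conj (a * a)).toMonoidHom ≠ L.map (MulAut.conj a).toMonoidHom := by
      intro h1
      rw [← map_conj_map_conj] at h1
      exact h21 (Subgroup.map_injective (MulAut.conj a).injective h1).symm
    have hz : a * y * a⁻¹ ∈ L.map (MulAut.conj a).toMonoidHom := ⟨y, hyL, rfl⟩
    have hu : (a * a) * y * (a * a)⁻¹ ∈ L.map (MulAut.conj (a * a)).toMonoidHom :=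
      ⟨y, hyL, rfl⟩
    have hyz : Commute y (a * y * a⁻¹) := hcomm hL hL2 h21 hyL hz
    have hwA : y⁻¹ * (a * y * a⁻¹) ∈ A := by
      have h1 : y⁻¹ * a * y⁻¹⁻¹ ∈ A := (mem_normalizer_iff.mp (inv_mem hyN) a).mp ha
      have h2 := A.mul_mem h1 (A.inv_mem ha)
      simpa [mul_assoc] using h2
    have hwa := h.comm a ha _ hwA
    -- `y * u = z ^ 2`
    have hyu : y * ((a * a) * y * (a * a)⁻¹) = (a * y * a⁻¹) * (a * y * a⁻¹) := by
      have h1 : (a * a) * y * (a * a)⁻¹ = (a * y * a⁻¹) * (y⁻¹ * (a * y * a⁻¹)) := by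
        calc (a * a) * y * (a * a)⁻¹ = (a * y * a⁻¹) * (a * (y⁻¹ * (a * y * a⁻¹)) * a⁻¹) := by
              group
          _ = (a * y * a⁻¹) * (y⁻¹ * (a * y * a⁻¹)) := by rw [hwa, mul_inv_cancel_right]
      rw [h1, ← mul_assoc, ← mul_assoc, hyz.eq, mul_inv_cancel_right]
    have hmem : (a * y * a⁻¹) * (a * y * a⁻¹) ∈
        sSup (minSet X \ {L.map (MulAut.conj a).toMonoidHom}) := by
      rw [← hyu]
      exact mul_mem
        (le_sSup (s := minSet X \ {L.map (MulAut.conj a).toMonoidHom}) ⟨hL, h21⟩ hyL)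
        (le_sSup (s := minSet X \ {L.map (MulAut.conj a).toMonoidHom}) ⟨hL3, h32⟩ hu)
    have h1 : (a * y * a⁻¹) * (a * y * a⁻¹) = 1 :=
      (Subgroup.disjoint_def.mp (hind hL2)) (mul_mem hz hz) hmem
    have h2 : a * (y * y) * a⁻¹ = 1 := by
      rw [← h1]
      group
    have h3 := congrArg (fun w => a⁻¹ * w * a) h2
    simpa [mul_assoc] using h3

/-- `A` normalises every factor of a non-abelian minimal normal subgroup. -/
theorem le_normalizer_of_mem (h : Core A) {X : Subgroup G} [hX : X.Normal]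
    (hind : sSupIndep (minSet X)) (hsimple : ∀ T ∈ minSet X, IsSimpleGroup T)
    (hc : ∀ T ∈ minSet X, ∀ z ∈ T, (∀ t ∈ T, Commute z t) → z = 1)
    {L : Subgroup G} (hL : L ∈ minSet X) : A ≤ normalizer (L : Set G) := by
  intro a ha
  by_contra haL
  have hS : IsSimpleGroup L := hsimple L hL
  have hna : ¬ ∀ x y : L, x * y = y * x := by
    intro h1
    apply hL.2.1
    rw [eq_bot_iff]
    intro z hz
    rw [mem_bot]
    exact hc L hL z hz fun t ht => congrArg Subtype.val (h1 ⟨z, hz⟩ ⟨t, ht⟩)
  let B : Subgroup (normalizer (L : Set G)) := A.subgroupOf (normalizer (L : Set G))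
  refine not_exp_two hna (B.map (normalizerMonoidHom L)) ?_ ?_
  · rintro _ ⟨b, hb, rfl⟩ _ ⟨c, hc, rfl⟩
    rw [← map_mul, ← map_mul]
    congr 1
    exact Subtype.ext (h.comm b hb c hc)
  · intro R hR hRtop x hx
    apply Subtype.ext
    refine h.exp_two hind hsimple hL ha haL (R := R.map L.subtype) (map_subtype_le R) ?_ ?_
      (mem_map_of_mem L.subtype hx)
    · intro h1
      apply hRtop
      rw [eq_top_iff]
      intro y _
      have h2 : (y : G) ∈ R.map L.subtype := by rw [h1]; exact y.2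
      obtain ⟨z, hz, hzy⟩ := h2
      have h3 : z = y := Subtype.ext hzy
      exact h3 ▸ hz
    · rw [le_normalizer_iff]
      rintro b ⟨hbA, hbL⟩ _ ⟨y, hy, rfl⟩
      exact ⟨_, hR _ ⟨⟨b, hbL⟩, hbA, rfl⟩ y hy, rfl⟩

/-- There is a normal simple non-abelian subgroup. -/
theorem exists_simple (h : Core A) : ∃ L : Subgroup G, L.Normal ∧ L ≠ ⊥ ∧ IsSimpleGroup L ∧
    ¬ ∀ x y : L, x * y = y * x := by
  obtain ⟨X, hX, hX0, hmin⟩ := h.exists_min
  have hna : ¬ ∀ x ∈ X, ∀ y ∈ X, Commute x y := fun h1 =>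
    hX0 (h.not_abelian hX fun x hx y hy => (h1 x hx y hy).eq)
  obtain ⟨⟨L, hL⟩, hind, -, hsimple, hc, -⟩ := nonabelian_structure X hmin hna
  have hA := h.le_normalizer_of_mem hind hsimple hc hL
  have hLn : L.Normal := h.normal_of_le hX hX0 hA hL.2.2.1
  refine ⟨L, hLn, hL.2.1, hsimple L hL, ?_⟩
  intro h1
  apply hL.2.1
  rw [eq_bot_iff]
  intro z hz
  rw [mem_bot]
  exact hc L hL z hz fun t ht => congrArg Subtype.val (h1 ⟨z, hz⟩ ⟨t, ht⟩)

omit [Finite G] in
/-- The centraliser of a non-abelian simple normal subgroup is trivial. -/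
theorem centralizer_eq_bot (h : Core A) {L : Subgroup G} (hL : L.Normal) [IsSimpleGroup L]
    (hna : ¬ ∀ x y : L, x * y = y * x) : centralizer (L : Set G) = ⊥ := by
  by_contra hC
  have hCn : (centralizer (L : Set G)).Normal := inferInstance
  have htop := h.sup_eq_top hCn hC
  -- commutators lie in the centraliser
  have hcomm : ∀ x y : G, x * y * x⁻¹ * y⁻¹ ∈ centralizer (L : Set G) := by
    intro x y
    have h1 : ∀ g : G, ∃ a ∈ A, ∃ c ∈ centralizer (L : Set G), g = a * c := by
      intro g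
      have h2 : g ∈ ((A ⊔ centralizer (L : Set G) : Subgroup G) : Set G) := by
        rw [htop]; exact mem_top g
      rw [coe_mul_of_left_le_normalizer_right _ _
        (by rw [normalizer_eq_top_iff.mpr hCn]; exact le_top)] at h2
      obtain ⟨a, ha, c, hc, rfl⟩ := h2
      exact ⟨a, ha, c, hc, rfl⟩
    obtain ⟨a, ha, c, hc, rfl⟩ := h1 x
    obtain ⟨b, hb, d, hd, rfl⟩ := h1 y
    rw [← QuotientGroup.eq_one_iff]
    have hc1 : (c : G ⧸ centralizer (L : Set G)) = 1 := (QuotientGroup.eq_one_iff c).mpr hc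
    have hd1 : (d : G ⧸ centralizer (L : Set G)) = 1 := (QuotientGroup.eq_one_iff d).mpr hd
    have hab : (a : G ⧸ centralizer (L : Set G)) * b = b * a := by
      rw [← QuotientGroup.mk_mul, ← QuotientGroup.mk_mul, h.comm a ha b hb]
    simp only [QuotientGroup.mk_mul, QuotientGroup.mk_inv, hc1, hd1, mul_one]
    rw [hab]
    group
  have hcen : ∀ z ∈ L, (∀ t ∈ L, z * t = t * z) → z = 1 := by
    intro z hz hzc
    rcases commute_or_center_trivial (T := L) with h1 | h1
    · exact absurd (fun x y => (h1 x y).eq) hna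
    · exact congrArg Subtype.val (h1 ⟨z, hz⟩ fun t => Subtype.ext (hzc t t.2))
  apply hna
  intro x y
  have h1 := hcomm x y
  have h2 : (x : G) * y * (x : G)⁻¹ * (y : G)⁻¹ = 1 := by
    apply hcen _ (x * y * x⁻¹ * y⁻¹ : L).2
    intro t ht
    exact (mem_centralizer_iff.mp h1 t ht).symm
  apply Subtype.ext
  have h3 := congrArg (fun w => w * ((y : G) * x)) h2
  simpa [mul_assoc] using h3

/-- `A ⊓ L ≠ 1`. -/
theorem inf_ne_bot (h : Core A) {L : Subgroup G} (hL : L.Normal)
    [IsSimpleGroup L] (hna : ¬ ∀ x y : L, x * y = y * x) : A ⊓ L ≠ ⊥ := by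
  intro hAL
  have hA1 : Nat.card A ≠ 1 := by
    intro h1
    apply h.noncyc
    have : Subsingleton A := (Nat.card_eq_one_iff_unique.mp h1).1
    infer_instance
  obtain ⟨p, hp, hpd⟩ := Nat.exists_prime_and_dvd hA1
  have : Fact p.Prime := ⟨hp⟩
  obtain ⟨a, ha⟩ := exists_prime_orderOf_dvd_card' p hpd
  have ha1 : (a : G) ≠ 1 := by
    intro h1
    have h2 : a = 1 := Subtype.ext h1
    rw [h2, orderOf_one] at ha
    exact hp.one_lt.ne ha
  apply not_isNilpotent_of_simple hna
  refine isNilpotent_of_fpf L (a := a) ?_ hp ?_ ?_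
  · rw [normalizer_eq_top_iff.mpr hL]
    exact mem_top _
  · rw [← ha]
    exact congrArg Subtype.val (pow_orderOf_eq_one a)
  · intro x hx hax
    have hxN : x ∈ normalizer (A : Set G) := by
      apply h.cent_le a.2 ha1
      rw [mul_inv_eq_iff_eq_mul] at hax
      exact hax.symm
    have hxA : x ∈ A := by
      apply h.cent
      rw [mem_centralizer_iff]
      intro b hb
      have h1 : b * x * b⁻¹ * x⁻¹ ∈ A ⊓ L := by
        refine ⟨?_, L.mul_mem (hL.conj_mem x hx b) (L.inv_mem hx)⟩
        have h2 := A.mul_mem hb ((mem_normalizer_iff.mp hxN b⁻¹).mp (A.inv_mem hb))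
        simpa [mul_assoc] using h2
      rw [hAL, mem_bot] at h1
      have h3 := congrArg (fun w => w * (x * b)) h1
      simpa [mul_assoc] using h3
    have : x ∈ A ⊓ L := ⟨hxA, hx⟩
    rwa [hAL, mem_bot] at this

/-- **The structure theorem modulo the centre.** -/
theorem main (h : Core A) : ∃ L : Subgroup G, L.Normal ∧ IsSimpleGroup L ∧
    (¬ ∀ x y : L, x * y = y * x) ∧ A ⊔ L = ⊤ ∧ centralizer (L : Set G) = ⊥ ∧ A ⊓ L ≠ ⊥ := by
  obtain ⟨L, hL, hL0, hS, hna⟩ := h.exists_simple
  exact ⟨L, hL, hS, hna, h.sup_eq_top hL hL0, h.centralizer_eq_bot hL hna,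
    h.inf_ne_bot hL hna⟩

end Core

/-! ## The situation in the group itself -/

/-- The minimal counterexample without root subgroups: `T` abelian, self-centralising, not normal,
every proper overgroup of `T` normalises `T`, a conjugate of `T` normalising `T` is `T` (Laurent
trick), elements `n` of `N(T)` with `[T, n, n] ≤ Z(F)` lie in `T`, and `T / Z(F)` is not
cyclic. -/
structure Ctx {F : Type*} [Group F] (T : Subgroup F) : Prop where
  comm : ∀ x ∈ T, ∀ y ∈ T, x * y = y * x
  cent : centralizer (T : Set F) ≤ T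
  ne : normalizer (T : Set F) ≠ ⊤
  uniq : ∀ H : Subgroup F, T ≤ H → H ≠ ⊤ → H ≤ normalizer (T : Set F)
  lt : ∀ f : F, (∀ t ∈ T, f * t * f⁻¹ ∈ normalizer (T : Set F)) → f ∈ normalizer (T : Set F)
  ql2Z : ∀ n ∈ normalizer (T : Set F), (∀ t ∈ T, ⁅⁅t, n⁆, n⁆ ∈ center F) → n ∈ T
  noncyc : ¬ IsCyclic (T.map (QuotientGroup.mk' (center F)))

namespace Ctx

variable {F : Type*} [Group F] {T : Subgroup F}

theorem ql2 (h : Ctx T) {n : F} (hn : n ∈ normalizer (T : Set F))
    (hc : ∀ t ∈ T, ⁅⁅t, n⁆, n⁆ = 1) : n ∈ T :=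
  h.ql2Z n hn fun t ht => by rw [hc t ht]; exact one_mem _

theorem center_le (h : Ctx T) : center F ≤ T := fun _ hz =>
  h.cent (center_le_centralizer _ hz)

theorem commutator_mem (_ : Ctx T) {n : F} (hn : n ∈ normalizer (T : Set F)) {t : F}
    (ht : t ∈ T) : ⁅t, n⁆ ∈ T := by
  rw [commutatorElement_def]
  have h1 := T.mul_mem ht ((mem_normalizer_iff.mp hn t⁻¹).mp (T.inv_mem ht))
  simpa [mul_assoc] using h1

theorem centralizer_ne_top (_ : Ctx T) {t : F} (ht : t ∉ center F) :
    centralizer ({t} : Set F) ≠ ⊤ := by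
  intro h1
  apply ht
  rw [mem_center_iff]
  intro g
  have : g ∈ centralizer ({t} : Set F) := by rw [h1]; exact mem_top g
  exact (mem_centralizer_singleton_iff.mp this)

/-- `C(t) ≤ N(T)` for `t ∈ T` not central. -/
theorem centralizer_le (h : Ctx T) {t : F} (htT : t ∈ T) (ht : t ∉ center F) :
    centralizer ({t} : Set F) ≤ normalizer (T : Set F) := by
  apply h.uniq _ _ (h.centralizer_ne_top ht)
  intro x hx
  rw [mem_centralizer_singleton_iff]
  exact h.comm x hx t htT

/-- (A) the TI property: `T ∩ T ^ g = Z(F)` for `g ∉ N(T)`. -/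
theorem ti (h : Ctx T) {t : F} (htT : t ∈ T) (ht : t ∉ center F) {g : F}
    (hg : g * t * g⁻¹ ∈ T) : g ∈ normalizer (T : Set F) := by
  have hs : g * t * g⁻¹ ∉ center F := by
    intro h1
    apply ht
    have h2 := (inferInstance : (center F).Normal).conj_mem _ h1 g⁻¹
    simpa [mul_assoc] using h2
  apply h.lt
  intro m hm
  apply h.centralizer_le hg hs
  rw [mem_centralizer_singleton_iff]
  have := h.comm m hm t htT
  calc g * m * g⁻¹ * (g * t * g⁻¹) = g * (m * t) * g⁻¹ := by group
    _ = g * t * g⁻¹ * (g * m * g⁻¹) := by rw [this]; group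

/-- (B) `[t, x] ∈ Z(F)` for some non-central `t ∈ T` implies `x ∈ N(T)`. -/
theorem mem_normalizer_of_commutator (h : Ctx T) {t : F} (htT : t ∈ T) (ht : t ∉ center F)
    {x : F} (hx : ⁅x, t⁆ ∈ center F) : x ∈ normalizer (T : Set F) := by
  apply h.ti htT ht
  have h1 : x * t * x⁻¹ = ⁅x, t⁆ * t := by rw [commutatorElement_def]; group
  rw [h1]
  exact T.mul_mem (h.center_le hx) htT

/-- (C) a normal subgroup contained in `N(T)` is central. -/
theorem le_center (h : Ctx T) {X : Subgroup F} (hX : X.Normal)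
    (hXN : X ≤ normalizer (T : Set F)) : X ≤ center F := by
  have hcen : ∀ z ∈ center F, ∀ x : F, ⁅z, x⁆ = 1 := by
    intro z hz x
    rw [commutatorElement_eq_one_iff_mul_comm]
    exact (mem_center_iff.mp hz x).symm
  have hcomm : ∀ t ∈ T, ∀ x ∈ X, ⁅t, x⁆ ∈ X ∧ ⁅t, x⁆ ∈ T := by
    intro t ht x hx
    refine ⟨?_, h.commutator_mem (hXN hx) ht⟩
    rw [commutatorElement_def]
    exact X.mul_mem (hX.conj_mem x hx t) (X.inv_mem hx)
  -- `X ⊓ T ≤ Z`
  have hXT : ∀ x ∈ X, x ∈ T → x ∈ center F := by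
    obtain ⟨f, hf⟩ : ∃ f : F, f ∉ normalizer (T : Set F) := by
      by_contra hcon
      push Not at hcon
      exact h.ne (eq_top_iff.mpr fun x _ => hcon x)
    intro b hbX hbT
    by_contra hb
    -- `x = b ^ f`
    have hxX : f * b * f⁻¹ ∈ X := hX.conj_mem b hbX f
    apply hf
    apply h.ti hbT hb
    apply h.ql2Z _ (hXN hxX)
    intro t ht
    obtain ⟨hcX, hcT⟩ := hcomm t ht _ hxX
    generalize ⁅t, f * b * f⁻¹⁆ = c at hcX hcT
    by_contra hZ
    -- `⁅c, x⁆` lies in `T` and in `T ^ f`
    have h1 : ⁅c, f * b * f⁻¹⁆ ∈ T := (hcomm c hcT _ hxX).2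
    have hc' : f⁻¹ * c * f ∈ X := by
      have := hX.conj_mem c hcX f⁻¹
      simpa using this
    have h2 : ⁅f⁻¹ * c * f, b⁆ ∈ T := by
      have h3 := T.inv_mem (hcomm b hbT _ hc').2
      rwa [commutatorElement_inv] at h3
    have h3 : ⁅c, f * b * f⁻¹⁆ = f * ⁅f⁻¹ * c * f, b⁆ * f⁻¹ := by
      rw [commutatorElement_def, commutatorElement_def]; group
    have h4 : ⁅f⁻¹ * c * f, b⁆ ∉ center F := by
      intro h5
      apply hZ
      rw [h3]
      exact (inferInstance : (center F).Normal).conj_mem _ h5 f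
    exact hf (h.ti h2 h4 (h3 ▸ h1))
  intro x hx
  have hxT : x ∈ T := by
    apply h.ql2 (hXN hx)
    intro t ht
    obtain ⟨h1, h2⟩ := hcomm t ht x hx
    exact hcen _ (hXT _ h1 h2) x
  exact hXT x hx hxT

theorem mk_mem_iff (h : Ctx T) {x : F} :
    QuotientGroup.mk' (center F) x ∈ T.map (QuotientGroup.mk' (center F)) ↔ x ∈ T := by
  constructor
  · rintro ⟨t, ht, htx⟩
    obtain ⟨z, hz, rfl⟩ := (QuotientGroup.mk'_eq_mk' _).mp htx
    exact T.mul_mem ht (h.center_le hz)
  · exact fun hx => mem_map_of_mem _ hx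

theorem mk_mem_normalizer_iff (h : Ctx T) {x : F} :
    QuotientGroup.mk' (center F) x ∈
      normalizer ((T.map (QuotientGroup.mk' (center F)) : Subgroup (F ⧸ center F)) :
        Set (F ⧸ center F)) ↔ x ∈ normalizer (T : Set F) := by
  rw [mem_normalizer_iff, mem_normalizer_iff]
  constructor
  · intro h1 y
    have h2 := h1 (QuotientGroup.mk' (center F) y)
    rw [← map_mul, ← map_inv, ← map_mul, h.mk_mem_iff, h.mk_mem_iff] at h2
    exact h2
  · intro h1 y
    obtain ⟨y, rfl⟩ := QuotientGroup.mk'_surjective (center F) y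
    rw [← map_mul, ← map_inv, ← map_mul, h.mk_mem_iff, h.mk_mem_iff]
    exact h1 y

theorem mk_eq_one_iff {x : F} : QuotientGroup.mk' (center F) x = 1 ↔ x ∈ center F :=
  QuotientGroup.eq_one_iff x

/-- **The passage to `F / Z(F)`.** -/
theorem core (h : Ctx T) : Core (T.map (QuotientGroup.mk' (center F))) where
  comm := by
    rintro _ ⟨x, hx, rfl⟩ _ ⟨y, hy, rfl⟩
    rw [← map_mul, ← map_mul, h.comm x hx y hy]
  cent := by
    intro x hx
    obtain ⟨x, rfl⟩ := QuotientGroup.mk'_surjective (center F) x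
    rw [h.mk_mem_iff]
    rw [mem_centralizer_iff] at hx
    have hc : ∀ t ∈ T, ⁅t, x⁆ ∈ center F := by
      intro t ht
      have h1 := hx _ (mem_map_of_mem _ ht)
      rw [← mk_eq_one_iff, map_commutatorElement, commutatorElement_eq_one_iff_mul_comm]
      exact h1
    have hN : x ∈ normalizer (T : Set F) := by
      rw [← h.mk_mem_normalizer_iff, mem_normalizer_iff]
      have h1 : ∀ y ∈ T.map (QuotientGroup.mk' (center F)),
          QuotientGroup.mk' (center F) x * y * (QuotientGroup.mk' (center F) x)⁻¹ = y := by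
        intro y hy
        rw [← hx y hy, mul_inv_cancel_right]
      intro y
      constructor
      · intro hy
        rw [h1 y hy]
        exact hy
      · intro hy
        have h2 := h1 _ hy
        have h3 : QuotientGroup.mk' (center F) x * y * (QuotientGroup.mk' (center F) x)⁻¹ = y := by
          have h4 := congrArg (fun w => (QuotientGroup.mk' (center F) x)⁻¹ * w *
            QuotientGroup.mk' (center F) x) h2
          simpa [mul_assoc] using h4
        rw [h3] at hy
        exact hy
    apply h.ql2 hN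
    intro t ht
    rw [commutatorElement_eq_one_iff_mul_comm]
    exact (mem_center_iff.mp (hc t ht) x).symm
  ne := by
    intro h1
    apply h.ne
    rw [eq_top_iff]
    intro x _
    rw [← h.mk_mem_normalizer_iff, h1]
    exact mem_top _
  uniq := by
    intro H hH hne x hx
    obtain ⟨x, rfl⟩ := QuotientGroup.mk'_surjective (center F) x
    rw [h.mk_mem_normalizer_iff]
    refine h.uniq (H.comap (QuotientGroup.mk' (center F))) ?_ ?_ hx
    · intro t ht
      exact hH (mem_map_of_mem _ ht)
    · intro h1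
      apply hne
      rw [eq_top_iff]
      intro y _
      obtain ⟨y, rfl⟩ := QuotientGroup.mk'_surjective (center F) y
      have : y ∈ H.comap (QuotientGroup.mk' (center F)) := by rw [h1]; exact mem_top y
      exact this
  ti := by
    rintro _ ⟨t, ht, rfl⟩ ht1 g hg
    obtain ⟨g, rfl⟩ := QuotientGroup.mk'_surjective (center F) g
    rw [← map_mul, ← map_inv, ← map_mul, h.mk_mem_iff] at hg
    rw [h.mk_mem_normalizer_iff]
    refine h.ti ht (fun h1 => ht1 (mk_eq_one_iff.mpr h1)) hg
  norm := by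
    intro X hX hXN
    rw [eq_bot_iff]
    intro x hx
    obtain ⟨x, rfl⟩ := QuotientGroup.mk'_surjective (center F) x
    rw [mem_bot, mk_eq_one_iff]
    refine h.le_center (X := X.comap (QuotientGroup.mk' (center F))) inferInstance ?_ hx
    intro y hy
    rw [← h.mk_mem_normalizer_iff]
    exact hXN hy
  noncyc := h.noncyc

/-- The Laurent trick property modulo the centre. -/
theorem core_lt (h : Ctx T) (g : F ⧸ center F)
    (hg : ∀ t ∈ T.map (QuotientGroup.mk' (center F)), g * t * g⁻¹ ∈
      normalizer ((T.map (QuotientGroup.mk' (center F)) : Subgroup (F ⧸ center F)) :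
        Set (F ⧸ center F))) :
    g ∈ normalizer ((T.map (QuotientGroup.mk' (center F)) : Subgroup (F ⧸ center F)) :
        Set (F ⧸ center F)) := by
  obtain ⟨g, rfl⟩ := QuotientGroup.mk'_surjective (center F) g
  rw [h.mk_mem_normalizer_iff]
  apply h.lt
  intro t ht
  have := hg _ (mem_map_of_mem _ ht)
  rwa [← map_mul, ← map_inv, ← map_mul, h.mk_mem_normalizer_iff] at this

/-- **Layer (2).**  `F / Z(F) = T̄ L` with `L` simple non-abelian normal, `C(L) = 1`,
`T̄ ∩ L ≠ 1`. -/
theorem main [Finite F] (h : Ctx T) : ∃ L : Subgroup (F ⧸ center F), L.Normal ∧ IsSimpleGroup L ∧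
    (¬ ∀ x y : L, x * y = y * x) ∧ T.map (QuotientGroup.mk' (center F)) ⊔ L = ⊤ ∧
    centralizer (L : Set (F ⧸ center F)) = ⊥ ∧
    T.map (QuotientGroup.mk' (center F)) ⊓ L ≠ ⊥ :=
  h.core.main

end Ctx

end Cfsg.Agent.H298.OT
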