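import Cfsg.Agent.Lib.PSL2Mult

/-!
# S2539, part 4.4 (END_l), Sylow case: `PSL(2, l ^ n)` (helper298)

The Sylow `l`-subgroups of `PSL(2, F)`, `|F| = l ^ n` odd: order, exponent, centraliser, and an element of the
normaliser of order `(l ^ n - 1) / 2` modulo the centraliser.
-/

set_option autoImplicit false
set_option linter.unusedSectionVars false

namespace Cfsg.Agent.H298.SY

open Subgroup Matrix Cfsg.Agent.Lib.PSL2Mult
open Cfsg.Agent.Ree Cfsg.Agent.Ree.PSLTori

/-- The facts on a Sylow `l`-subgroup of `PSL(2, l ^ n)`. -/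
structure PSLFacts {L : Type*} [Group L] (Q : Subgroup L) (l N : ℕ) : Prop where
  card : Nat.card Q = N
  exp : ∀ x ∈ Q, x ^ l = 1
  cent : ∀ g, (∀ x ∈ Q, g * x = x * g) → g ∈ Q
  tor : ∃ c : L, (∀ x ∈ Q, c * x * c⁻¹ ∈ Q) ∧ ∀ j : ℕ, (∀ x ∈ Q, c ^ j * x = x * c ^ j) → (N - 1) / 2 ∣ j

theorem PSLFacts.map {L L' : Type*} [Group L] [Group L'] {Q : Subgroup L} {l N : ℕ} (h : PSLFacts Q l N)
    (e : L ≃* L') : PSLFacts (Q.map e.toMonoidHom) l N := by
  refine ⟨?_, ?_, ?_, ?_⟩
  · rw [← h.card]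
    exact (Nat.card_congr (Q.equivMapOfInjective e.toMonoidHom e.injective).toEquiv).symm
  · rintro _ ⟨x, hx, rfl⟩
    rw [← map_pow, h.exp x hx, map_one]
  · intro g hg
    refine ⟨e.symm g, h.cent _ fun x hx => ?_, e.apply_symm_apply g⟩
    apply e.injective
    rw [map_mul, map_mul, e.apply_symm_apply]
    exact hg _ ⟨x, hx, rfl⟩
  · obtain ⟨c, hc, hj⟩ := h.tor
    refine ⟨e c, ?_, ?_⟩
    · rintro _ ⟨x, hx, rfl⟩
      refine ⟨c * x * c⁻¹, hc x hx, ?_⟩
      change e (c * x * c⁻¹) = e c * e x * (e c)⁻¹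
      rw [map_mul, map_mul, map_inv]
    · intro j h1
      refine hj j fun x hx => ?_
      apply e.injective
      rw [map_mul, map_mul, map_pow]
      exact h1 _ ⟨x, hx, rfl⟩

section
variable {F : Type*} [Field F] [Fintype F]

local notation "PSL₂" => Matrix.ProjectiveSpecialLinearGroup (Fin 2)

/-- The root group. -/
def rtGroup (F : Type*) [Field F] : Subgroup (PSL₂ F) where
  carrier := Set.range (rt : F → PSL₂ F)
  mul_mem' := by
    rintro _ _ ⟨a, rfl⟩ ⟨b, rfl⟩
    exact ⟨a + b, rt_add a b⟩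
  one_mem' := ⟨0, by
    have := rt_add (0 : F) 0
    rw [add_zero] at this
    exact mul_eq_left.1 this.symm⟩
  inv_mem' := by
    rintro _ ⟨a, rfl⟩
    refine ⟨-a, ?_⟩
    have h0 : rt (0 : F) = 1 := by
      have := rt_add (0 : F) 0
      rw [add_zero] at this
      exact mul_eq_left.1 this.symm
    have := rt_add (-a) a
    rw [neg_add_cancel, h0] at this
    exact eq_inv_of_mul_eq_one_left this.symm

theorem mem_rtGroup {x : PSL₂ F} : x ∈ rtGroup F ↔ ∃ a, rt a = x := Iff.rfl

theorem rt_injective : Function.Injective (rt : F → PSL₂ F) := by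
  intro a b h4
  have h0 : rt (0 : F) = 1 := by
    have := rt_add (0 : F) 0
    rw [add_zero] at this
    exact mul_eq_left.1 this.symm
  have h5 : rt (a + -b) = 1 := by
    rw [rt_add, h4, ← rt_add, add_neg_cancel, h0]
  have := rt_inj _ h5
  exact (sub_eq_zero.1 (by rw [sub_eq_add_neg]; exact this))

theorem rt_nsmul (a : F) (n : ℕ) : rt a ^ n = rt (n • a) := by
  induction n with
  | zero =>
    have h0 : rt (0 : F) = 1 := by
      have := rt_add (0 : F) 0
      rw [add_zero] at this
      exact mul_eq_left.1 this.symm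
    rw [pow_zero, zero_smul, h0]
  | succ n ih => rw [pow_succ, ih, ← rt_add, succ_nsmul]

theorem card_rtGroup : Nat.card (rtGroup F) = Fintype.card F := by
  rw [← Nat.card_eq_fintype_card]
  exact (Nat.card_congr (Equiv.ofInjective _ (rt_injective (F := F)))).symm

theorem pslFacts_rtGroup {l : ℕ} [Fact l.Prime] (hl : l ≠ 2) [CharP F l] :
    PSLFacts (rtGroup F) l (Fintype.card F) := by
  have h2 : (2 : F) ≠ 0 := by
    intro h
    have h1 : l ∣ 2 := (CharP.cast_eq_zero_iff F l 2).1 (by exact_mod_cast h)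
    exact hl ((Nat.prime_dvd_prime_iff_eq Fact.out Nat.prime_two).1 h1)
  refine ⟨card_rtGroup, ?_, ?_, ?_⟩
  · rintro _ ⟨a, rfl⟩
    rw [rt_nsmul, nsmul_eq_mul, CharP.cast_eq_zero, zero_mul]
    have := rt_add (0 : F) 0
    rw [add_zero] at this
    exact mul_eq_left.1 this.symm
  · intro g hg
    have h1 : Nat.card (Subgroup.centralizer ({rt (1 : F)} : Set (PSL₂ F))) = Fintype.card F := by
      apply card_centralizer_unipotent h2
      · intro h
        have := rt_inj (1 : F) (by rw [rt_def, h, map_one])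
        exact one_ne_zero this
      · rw [tr]
        simp [Cfsg.Agent.ClassicalGeometry.SplitTorus.up]
        norm_num
    have h3 : rtGroup F ≤ Subgroup.centralizer ({rt (1 : F)} : Set (PSL₂ F)) := by
      rintro _ ⟨a, rfl⟩
      rw [Subgroup.mem_centralizer_singleton_iff, ← rt_add, ← rt_add, add_comm]
    have h4 : rtGroup F = Subgroup.centralizer ({rt (1 : F)} : Set (PSL₂ F)) :=
      Subgroup.eq_of_le_of_card_ge h3 (by rw [h1, card_rtGroup])
    rw [h4, Subgroup.mem_centralizer_singleton_iff]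
    exact hg _ ⟨1, rfl⟩
  · obtain ⟨u, hu⟩ := IsCyclic.exists_generator (α := Fˣ)
    refine ⟨Cfsg.Agent.ClassicalGeometry.PSLTorus.pr F (Cfsg.Agent.ClassicalGeometry.SplitTorus.dg u), ?_, ?_⟩
    · rintro _ ⟨a, rfl⟩
      rw [conj_rt]
      exact ⟨_, rfl⟩
    · intro j hj
      have hk : ∀ j : ℕ, ∀ a : F, (Cfsg.Agent.ClassicalGeometry.PSLTorus.pr F
          (Cfsg.Agent.ClassicalGeometry.SplitTorus.dg u)) ^ j * rt a =
          rt (((u : F) ^ 2) ^ j * a) * (Cfsg.Agent.ClassicalGeometry.PSLTorus.pr F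
          (Cfsg.Agent.ClassicalGeometry.SplitTorus.dg u)) ^ j := by
        intro j
        induction j with
        | zero => intro a; rw [pow_zero, pow_zero, one_mul, mul_one, one_mul]
        | succ j ih =>
          intro a
          have := conj_rt u a
          rw [mul_inv_eq_iff_eq_mul] at this
          rw [pow_succ, mul_assoc, this, ← mul_assoc, ih, mul_assoc, ← pow_succ]
          congr 2
          ring
      have h1 := hj _ ⟨1, rfl⟩
      rw [hk, mul_left_inj] at h1
      have h3 := rt_injective h1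
      rw [mul_one] at h3
      have h4 : u ^ (2 * j) = 1 := by
        apply Units.ext
        rw [Units.val_pow_eq_pow_val, pow_mul, h3, Units.val_one]
      have h5 : Fintype.card F - 1 ∣ 2 * j := by
        have h6 : orderOf u = Fintype.card F - 1 := by
          rw [orderOf_eq_card_of_forall_mem_zpowers hu, Nat.card_units, Nat.card_eq_fintype_card]
        rw [← h6]
        exact orderOf_dvd_of_pow_eq_one h4
      have h7 : 2 ∣ Fintype.card F - 1 := by
        have h8 : Fintype.card F % 2 = 1 := by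
          obtain ⟨n, -, hn⟩ := FiniteField.card F l
          rw [hn]
          exact Nat.odd_iff.1 (((Fact.out : l.Prime).odd_of_ne_two hl).pow)
        omega
      obtain ⟨r, hr⟩ := h7
      rw [hr, Nat.mul_div_cancel_left _ (by norm_num)]
      rw [hr] at h5
      exact Nat.dvd_of_mul_dvd_mul_left (by norm_num) h5

/-- **The Sylow `l`-subgroups of `PSL(2, l ^ n)`.** -/
theorem pslFacts {L : Type*} [Group L] [Finite L] {l : ℕ} [Fact l.Prime] (hl : l ≠ 2) {n : ℕ} (hn : n ≠ 0)
    (hF : Fintype.card F = l ^ n) (e : L ≃* PSL₂ F) (Q : Sylow l L) : PSLFacts (Q : Subgroup L) l (l ^ n) := by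
  have : CharP F l := by
    obtain ⟨p, hp⟩ := CharP.exists F
    obtain ⟨m, hpp, hm⟩ := FiniteField.card F p
    have h1 : p ∣ l ^ n := by
      rw [← hF, hm]
      exact dvd_pow_self p m.ne_zero
    have h2 := (Nat.prime_dvd_prime_iff_eq hpp Fact.out).1 (hpp.dvd_of_dvd_pow h1)
    rwa [h2] at hp
  have h0 := pslFacts_rtGroup (F := F) hl
  rw [hF] at h0
  -- the root group is a Sylow subgroup
  have hodd : Odd (Fintype.card F) := by
    rw [hF]
    exact ((Fact.out : l.Prime).odd_of_ne_two hl).pow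
  have hpg : IsPGroup l (rtGroup F) := by
    rw [IsPGroup.iff_card]
    exact ⟨n, h0.card⟩
  obtain ⟨S, hS⟩ := hpg.exists_le_sylow
  have hS' : (S : Subgroup (PSL₂ F)) = rtGroup F := by
    refine le_antisymm (fun y hy => ?_) hS
    obtain ⟨a, ha⟩ := mem_rt_of_isPGroup hodd (by rw [hF]; exact dvd_pow_self l hn) (S : Subgroup (PSL₂ F)) S.2
      (fun a => hS ⟨a, rfl⟩) y hy
    exact ⟨a, ha.symm⟩
  -- pull back to `L`
  have h1 : PSLFacts ((rtGroup F).map e.symm.toMonoidHom) l (l ^ n) := h0.map e.symm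
  have hcard : Nat.card (Q : Subgroup L) = Nat.card ((rtGroup F).map e.symm.toMonoidHom) := by
    rw [h1.card, ← h0.card, ← hS', S.card_eq_multiplicity, Q.card_eq_multiplicity, Nat.card_congr e.toEquiv]
  let R : Sylow l L := Sylow.ofCard ((rtGroup F).map e.symm.toMonoidHom) (by
    rw [← hcard, Q.card_eq_multiplicity])
  obtain ⟨g, hg⟩ := MulAction.exists_smul_eq L R Q
  have h3 := h1.map (MulAut.conj g)
  have h4 : ((rtGroup F).map e.symm.toMonoidHom).map (MulAut.conj g).toMonoidHom = (Q : Subgroup L) := by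
    rw [← hg]
    rfl
  rwa [h4] at h3

end

end Cfsg.Agent.H298.SY
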